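import Cfsg.Agent.H794.SmallFix

/-!
# Relative critical subgroups (helper793)

`Q` a finite `p`-group, `G` a group of automorphisms of `Q` containing the inner ones, `T` a `G`-invariant subgroup.
There is a `G`-invariant `D ≤ T` of exponent `p` (dividing 4 for `p = 2`) with `[D, Q] ≤ Z(D)` such that a
`p'`-automorphism which is trivial on `D` and on `Q / T` is trivial. The same holds with a maximal abelian subgroup
of `D` in place of `D`.
-/

set_option autoImplicit false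

namespace Cfsg.Agent.H793

open Cfsg.Agent.H794
open scoped commutatorElement

/-- The exponent used for "small" elements. -/
def sexp (p : ℕ) : ℕ := if p = 2 then 4 else p

theorem small_of_sexp {p : ℕ} {Q : Type*} [Group Q] {x : Q} (h : x ^ sexp p = 1) :
    x ^ p = 1 ∨ (p = 2 ∧ x ^ 4 = 1) := by
  unfold sexp at h
  split_ifs at h with h2
  · exact Or.inr ⟨h2, h⟩
  · exact Or.inl h

theorem sexp_of_small {p : ℕ} {Q : Type*} [Group Q] {x : Q}
    (h : x ^ p = 1 ∨ (p = 2 ∧ x ^ 4 = 1)) : x ^ sexp p = 1 := by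
  unfold sexp
  split_ifs with h2
  · rcases h with h | ⟨-, h⟩
    · subst h2
      have : x ^ 4 = (x ^ 2) ^ 2 := by rw [← pow_mul]
      rw [this, h, one_pow]
    · exact h
  · rcases h with h | ⟨h3, -⟩
    · exact h
    · exact absurd h3 h2

/-- Normal subgroups `B < X` of a finite `p`-group: some `x ∈ X`, `x ∉ B`, is central of order `p` modulo `B`. -/
theorem le_of_central_step {Q : Type*} [Group Q] [Finite Q] {p : ℕ} [hp : Fact p.Prime]
    (hQ : IsPGroup p Q) (B X : Subgroup Q) (hB : B.Normal) (hX : X.Normal)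
    (h : ∀ x ∈ X, (∀ q : Q, ⁅x, q⁆ ∈ B) → x ^ p ∈ B → x ∈ B) : X ≤ B := by
  -- first drop the condition on the `p`-th power
  have hpow : ∀ x ∈ X, (∀ q : Q, ⁅x, q⁆ ∈ B) → ∀ n : ℕ, ∀ q : Q, ⁅x ^ n, q⁆ ∈ B := by
    intro x hx hc n
    induction n with
    | zero => intro q; simp
    | succ n ih =>
      intro q
      have h1 : ⁅x ^ (n + 1), q⁆ = x * ⁅x ^ n, q⁆ * x⁻¹ * ⁅x, q⁆ := by
        rw [pow_succ']; simp only [commutatorElement_def]; group
      rw [h1]
      exact B.mul_mem (hB.conj_mem _ (ih q) x) (hc q)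
  have h2 : ∀ x ∈ X, (∀ q : Q, ⁅x, q⁆ ∈ B) → x ∈ B := by
    intro x hx hc
    obtain ⟨k, hk⟩ := hQ x
    have h3 : ∀ j : ℕ, j ≤ k → x ^ p ^ (k - j) ∈ B := by
      intro j
      induction j with
      | zero => intro _; rw [Nat.sub_zero, hk]; exact B.one_mem
      | succ j ih =>
        intro hj
        refine h _ (X.pow_mem hx _) (hpow x hx hc _) ?_
        have h4 := ih (by omega)
        have h5 : p ^ (k - j) = p ^ (k - (j + 1)) * p := by
          rw [← pow_succ]; congr 1; omega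
        rw [h5, pow_mul] at h4
        exact h4
    have := h3 k le_rfl
    simpa using this
  -- now along the lower central series
  have hnil : Group.IsNilpotent Q := hQ.isNilpotent
  obtain ⟨n, hn⟩ := (Subgroup.nilpotent_iff_lowerCentralSeries (G := Q)).1 hnil
  have h3 : ∀ j : ℕ, j ≤ n → X ⊓ Subgroup.lowerCentralSeries (⊤ : Subgroup Q) (n - j) ≤ B := by
    intro j
    induction j with
    | zero =>
      intro _
      rw [Nat.sub_zero, hn, inf_bot_eq]
      exact bot_le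
    | succ j ih =>
      intro hj x hx
      refine h2 x hx.1 fun q => ih (by omega) ⟨?_, ?_⟩
      · have : ⁅x, q⁆ = x * (q * x⁻¹ * q⁻¹) := by rw [commutatorElement_def]; group
        rw [this]
        exact X.mul_mem hx.1 (hX.conj_mem _ (X.inv_mem hx.1) q)
      · have h4 : n - j = n - (j + 1) + 1 := by omega
        rw [h4]
        exact Subgroup.commutator_mem_commutator hx.2 (Subgroup.mem_top q)
  have h4 := h3 n le_rfl
  rw [Nat.sub_self, Subgroup.lowerCentralSeries_zero, inf_top_eq] at h4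
  exact h4

/-- The relative critical subgroup before passing to the elements of small order. -/
theorem exists_relCrit_aux {Q : Type*} [Group Q] [Finite Q] {p : ℕ} [hp : Fact p.Prime]
    (hQ : IsPGroup p Q) (G : Subgroup (MulAut Q)) (hG : ∀ q : Q, MulAut.conj q ∈ G)
    (T : Subgroup Q) (hT : ∀ g ∈ G, ∀ x ∈ T, g x ∈ T) :
    ∃ B D : Subgroup Q, B ≤ D ∧ D ≤ T ∧ (∀ g ∈ G, ∀ x ∈ B, g x ∈ B) ∧ (∀ g ∈ G, ∀ x ∈ D, g x ∈ D) ∧
      (∀ x ∈ D, ∀ b ∈ B, x * b = b * x) ∧ (∀ x ∈ D, x ^ p ∈ B) ∧ (∀ x ∈ D, ∀ q : Q, ⁅x, q⁆ ∈ B) ∧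
      (∀ x ∈ T, (∀ d ∈ D, x * d = d * x) → x ∈ B) := by
  -- `B` a maximal `G`-invariant abelian subgroup of `T`
  let P : Subgroup Q → Prop := fun B => B ≤ T ∧ (∀ g ∈ G, ∀ x ∈ B, g x ∈ B) ∧
    ∀ x ∈ B, ∀ y ∈ B, x * y = y * x
  have hPbot : P ⊥ := by
    refine ⟨bot_le, ?_, ?_⟩
    · intro g _ x hx
      rw [Subgroup.mem_bot] at hx
      rw [hx, map_one]; exact Subgroup.one_mem _
    · intro x hx y hy
      rw [Subgroup.mem_bot] at hx hy
      rw [hx, hy]
  obtain ⟨B, -, hBmax⟩ := (Set.toFinite {B : Subgroup Q | P B}).exists_le_maximal hPbot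
  obtain ⟨hBT, hBG, hBab⟩ : P B := hBmax.1
  have hmax : ∀ C : Subgroup Q, P C → B ≤ C → C ≤ B := fun C hC hBC => hBmax.2 hC hBC
  have hBn : B.Normal := ⟨fun n hn g => by simpa using hBG _ (hG g) n hn⟩
  have hcomm_conj : ∀ g ∈ G, ∀ x : Q, (∀ q : Q, ⁅x, q⁆ ∈ B) → ∀ q : Q, ⁅g x, q⁆ ∈ B := by
    intro g hg x hx q
    have h1 := hBG g hg _ (hx (g⁻¹ q))
    rw [map_commutatorElement, MulAut.apply_inv_self] at h1
    exact h1
  -- the preimage `D` of `Ω₁(Z(Q/B))` in `C_T(B)`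
  let D : Subgroup Q :=
    { carrier := {x | x ∈ T ∧ (∀ b ∈ B, x * b = b * x) ∧ (∀ q : Q, ⁅x, q⁆ ∈ B) ∧ x ^ p ∈ B}
      one_mem' := ⟨T.one_mem, fun b _ => by simp, fun q => by simp, by simp⟩
      mul_mem' := by
        rintro x y ⟨hx1, hx2, hx3, hx4⟩ ⟨hy1, hy2, hy3, hy4⟩
        refine ⟨T.mul_mem hx1 hy1, fun b hb => ?_, fun q => ?_, ?_⟩
        · rw [mul_assoc, hy2 b hb, ← mul_assoc, hx2 b hb, mul_assoc]
        · have h1 : ⁅x * y, q⁆ = x * ⁅y, q⁆ * x⁻¹ * ⁅x, q⁆ := by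
            simp only [commutatorElement_def]; group
          rw [h1]
          exact B.mul_mem (hBn.conj_mem _ (hy3 q) x) (hx3 q)
        · have h1 : (QuotientGroup.mk (x * y) : Q ⧸ B) ^ p = 1 := by
            have hc : Commute (QuotientGroup.mk x : Q ⧸ B) (QuotientGroup.mk y) := by
              have h2 : (QuotientGroup.mk ⁅x, y⁆ : Q ⧸ B) = 1 :=
                (QuotientGroup.eq_one_iff _).2 (hx3 y)
              have h3 : ⁅(QuotientGroup.mk x : Q ⧸ B), (QuotientGroup.mk y : Q ⧸ B)⁆ = 1 := h2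
              exact commutatorElement_eq_one_iff_commute.1 h3
            rw [QuotientGroup.mk_mul, hc.mul_pow, ← QuotientGroup.mk_pow, ← QuotientGroup.mk_pow,
              (QuotientGroup.eq_one_iff _).2 hx4, (QuotientGroup.eq_one_iff _).2 hy4, one_mul]
          rw [← QuotientGroup.mk_pow] at h1
          exact (QuotientGroup.eq_one_iff _).1 h1
      inv_mem' := by
        rintro x ⟨hx1, hx2, hx3, hx4⟩
        refine ⟨T.inv_mem hx1, fun b hb => ?_, fun q => ?_, ?_⟩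
        · have := hx2 b hb
          calc x⁻¹ * b = x⁻¹ * (b * x) * x⁻¹ := by group
            _ = x⁻¹ * (x * b) * x⁻¹ := by rw [this]
            _ = b * x⁻¹ := by group
        · have h1 : ⁅x⁻¹, q⁆ = x⁻¹ * ⁅x, q⁆⁻¹ * x⁻¹⁻¹ := by
            simp only [commutatorElement_def]; group
          rw [h1]
          exact hBn.conj_mem _ (B.inv_mem (hx3 q)) x⁻¹
        · rw [inv_pow]; exact B.inv_mem hx4 }
  have hmemD : ∀ x, x ∈ D ↔ x ∈ T ∧ (∀ b ∈ B, x * b = b * x) ∧ (∀ q : Q, ⁅x, q⁆ ∈ B) ∧ x ^ p ∈ B :=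
    fun x => Iff.rfl
  have hBD : B ≤ D := by
    intro b hb
    refine (hmemD b).2 ⟨hBT hb, fun c hc => hBab b hb c hc, fun q => ?_, B.pow_mem hb p⟩
    have : ⁅b, q⁆ = b * (q * b⁻¹ * q⁻¹) := by rw [commutatorElement_def]; group
    rw [this]
    exact B.mul_mem hb (hBn.conj_mem _ (B.inv_mem hb) q)
  have hDG : ∀ g ∈ G, ∀ x ∈ D, g x ∈ D := by
    intro g hg x hx
    obtain ⟨h1, h2, h3, h4⟩ := (hmemD x).1 hx
    refine (hmemD _).2 ⟨hT g hg x h1, fun b hb => ?_, hcomm_conj g hg x h3, ?_⟩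
    · have h5 := h2 (g⁻¹ b) (hBG _ (G.inv_mem hg) b hb)
      have h6 := congrArg g h5
      rw [map_mul, map_mul, MulAut.apply_inv_self] at h6
      exact h6
    · rw [← map_pow]; exact hBG g hg _ h4
  -- the centralizer of `D` in `T`
  have hDcent : ∀ x ∈ T, (∀ d ∈ D, x * d = d * x) → x ∈ B := by
    -- `Z(D) = B`
    have hZD : ∀ x ∈ D, (∀ d ∈ D, x * d = d * x) → x ∈ B := by
      let Z : Subgroup Q := D ⊓ Subgroup.centralizer (D : Set Q)
      have hZ : P Z := by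
        refine ⟨fun x hx => ((hmemD x).1 hx.1).1, fun g hg x hx => ⟨hDG g hg x hx.1, ?_⟩, ?_⟩
        · refine Subgroup.mem_centralizer_iff.2 fun d hd => ?_
          have h5 := Subgroup.mem_centralizer_iff.1 hx.2 (g⁻¹ d) (hDG _ (G.inv_mem hg) d hd)
          have h6 := congrArg g h5
          rw [map_mul, map_mul, MulAut.apply_inv_self] at h6
          exact h6
        · intro x hx y hy
          exact Subgroup.mem_centralizer_iff.1 hy.2 x hx.1
      have hBZ : B ≤ Z := fun b hb =>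
        ⟨hBD hb, Subgroup.mem_centralizer_iff.2 fun d hd => ((hmemD d).1 hd).2.1 b hb⟩
      intro x hx hxc
      exact hmax Z hZ hBZ ⟨hx, Subgroup.mem_centralizer_iff.2 fun d hd => (hxc d hd).symm⟩
    have hX : (T ⊓ Subgroup.centralizer (D : Set Q)).Normal := by
      refine ⟨fun n hn g => ⟨by simpa using hT _ (hG g) n hn.1, ?_⟩⟩
      refine Subgroup.mem_centralizer_iff.2 fun d hd => ?_
      have h5 := Subgroup.mem_centralizer_iff.1 hn.2 (g⁻¹ * d * g)
        (by simpa using hDG _ (hG g⁻¹) d hd)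
      calc d * (g * n * g⁻¹) = g * (g⁻¹ * d * g * n) * g⁻¹ := by group
        _ = g * (n * (g⁻¹ * d * g)) * g⁻¹ := by rw [h5]
        _ = g * n * g⁻¹ * d := by group
    have hle : T ⊓ Subgroup.centralizer (D : Set Q) ≤ B := by
      refine le_of_central_step hQ B _ hBn hX fun x hx hxq hxp => ?_
      have hxc : ∀ d ∈ D, x * d = d * x := fun d hd =>
        (Subgroup.mem_centralizer_iff.1 hx.2 d hd).symm
      exact hZD x ((hmemD x).2 ⟨hx.1, fun b hb => hxc b (hBD hb), hxq, hxp⟩) hxc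
    intro x hx hxc
    exact hle ⟨hx, Subgroup.mem_centralizer_iff.2 fun d hd => (hxc d hd).symm⟩
  exact ⟨B, D, hBD, fun x hx => ((hmemD x).1 hx).1, hBG, hDG, fun x hx => ((hmemD x).1 hx).2.1,
    fun x hx => ((hmemD x).1 hx).2.2.2, fun x hx => ((hmemD x).1 hx).2.2.1, hDcent⟩

/-- **Relative critical subgroup.** -/
theorem exists_relCrit {Q : Type*} [Group Q] [Finite Q] {p : ℕ} [hp : Fact p.Prime]
    (hQ : IsPGroup p Q) (G : Subgroup (MulAut Q)) (hG : ∀ q : Q, MulAut.conj q ∈ G)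
    (T : Subgroup Q) (hT : ∀ g ∈ G, ∀ x ∈ T, g x ∈ T) :
    ∃ D : Subgroup Q, D ≤ T ∧ (∀ g ∈ G, ∀ x ∈ D, g x ∈ D) ∧ (∀ x ∈ D, x ^ sexp p = 1) ∧
      (∀ x ∈ D, ∀ q : Q, ⁅x, q⁆ ∈ D ∧ ∀ d ∈ D, ⁅x, q⁆ * d = d * ⁅x, q⁆) ∧
      (∀ b ∈ G, (orderOf b).Coprime p → (∀ x, x⁻¹ * b x ∈ T) → (∀ x ∈ D, b x = x) →
        b = 1) := by
  obtain ⟨B, D, hBD, hDT, hBG, hDG, hBc, hDp, hDq, hcent⟩ := exists_relCrit_aux hQ G hG T hT
  have hclass : ∀ x ∈ D, ∀ y ∈ D, ∀ n : ℕ,
      (x * y) ^ n = x ^ n * y ^ n * ⁅y⁻¹, x⁻¹⁆ ^ (n * (n - 1) / 2) := by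
    intro x hx y hy n
    have hzB : ⁅y⁻¹, x⁻¹⁆ ∈ B := hDq _ (D.inv_mem hy) _
    refine mul_pow_of_central_comm x y _ ?_ (hBc x hx _ hzB).symm (hBc y hy _ hzB).symm n
    rw [commutatorElement_def]; group
  have hcommp : ∀ x ∈ D, ∀ y ∈ D, ⁅x, y⁆ ^ p = 1 := by
    intro x hx y hy
    have hzB : ⁅x, y⁆ ∈ B := hDq _ hx _
    -- `[x^n, y] = [x,y]^n`
    have h1 : ∀ n : ℕ, ⁅x ^ n, y⁆ = ⁅x, y⁆ ^ n := by
      intro n
      induction n with
      | zero => simp
      | succ n ih =>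
        have h2 : ⁅x ^ (n + 1), y⁆ = x * ⁅x ^ n, y⁆ * x⁻¹ * ⁅x, y⁆ := by
          rw [pow_succ']; simp only [commutatorElement_def]; group
        rw [h2, ih]
        have h3 : x * ⁅x, y⁆ ^ n = ⁅x, y⁆ ^ n * x := hBc x hx _ (B.pow_mem hzB n)
        rw [h3, mul_inv_cancel_right, pow_succ]
    rw [← h1, commutatorElement_eq_one_iff_mul_comm]
    exact (hBc y hy _ (hDp x hx)).symm
  let E : Subgroup Q :=
    { carrier := {x | x ∈ D ∧ x ^ sexp p = 1}
      one_mem' := ⟨D.one_mem, by simp⟩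
      mul_mem' := by
        rintro x y ⟨hx, hxe⟩ ⟨hy, hye⟩
        refine ⟨D.mul_mem hx hy, ?_⟩
        rw [hclass x hx y hy, hxe, hye, one_mul, one_mul]
        have h1 : p ∣ sexp p * (sexp p - 1) / 2 := by
          unfold sexp
          split_ifs with h2
          · subst h2; norm_num
          · obtain ⟨k, hk⟩ := hp.out.odd_of_ne_two h2
            have : p * (p - 1) / 2 = p * k := by
              have h3 : p - 1 = 2 * k := by omega
              rw [h3, show p * (2 * k) = 2 * (p * k) by ring]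
              exact Nat.mul_div_cancel_left _ (by norm_num)
            rw [this]
            exact Dvd.intro _ rfl
        obtain ⟨m, hm⟩ := h1
        rw [hm, pow_mul, hcommp _ (D.inv_mem hy) _ (D.inv_mem hx), one_pow]
      inv_mem' := by
        rintro x ⟨hx, hxe⟩
        exact ⟨D.inv_mem hx, by rw [inv_pow, hxe, inv_one]⟩ }
  have hE : ∀ x, x ∈ E ↔ x ∈ D ∧ x ^ sexp p = 1 := fun x => Iff.rfl
  refine ⟨E, fun x hx => hDT hx.1, fun g hg x hx => ⟨hDG g hg x hx.1, by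
    rw [← map_pow, hx.2, map_one]⟩, fun x hx => hx.2, fun x hx q => ⟨⟨?_, ?_⟩, fun d hd => ?_⟩, ?_⟩
  · exact hBD (hDq x hx.1 q)
  · -- `[x,q]` has small order: `[x,q] = x (q x⁻¹ q⁻¹)` and both factors are in `E`
    have h1 : ⁅x, q⁆ = x * (q * x⁻¹ * q⁻¹) := by rw [commutatorElement_def]; group
    have h2 : q * x⁻¹ * q⁻¹ ∈ E := by
      refine ⟨by simpa using hDG _ (hG q) _ (D.inv_mem hx.1), ?_⟩
      rw [conj_pow, inv_pow, hx.2]; simp
    rw [h1]
    exact (E.mul_mem hx h2).2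
  · exact (hBc d hd.1 _ (hDq x hx.1 q)).symm
  · intro b hbG hb hbT hbE
    -- `b` is trivial on `D`
    have hbD : ∀ x ∈ D, b x = x := by
      obtain ⟨c, hce, hcd⟩ := exists_restrict b D (hDG b hbG)
      have hc1 : c = 1 := by
        refine mulAut_eq_one_of_fix_small (hQ.to_subgroup D) c (hb.coprime_dvd_left hcd) ?_
        intro x hx
        apply Subtype.ext
        rw [hce]
        refine hbE _ ⟨x.2, ?_⟩
        have := congrArg Subtype.val (sexp_of_small hx)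
        exact this
      intro x hx
      have := hce ⟨x, hx⟩
      rw [hc1] at this
      exact this.symm
    apply MulEquiv.ext
    intro x
    refine fix_of_fix_div hQ b hb x (hbD _ (hBD (hcent _ (hbT x) fun d hd => ?_)))
    -- `x⁻¹ b x` centralizes `D`
    have h1 : b ⁅d, x⁆ = ⁅d, x⁆ := hbD _ (hBD (hDq d hd x))
    rw [map_commutatorElement, hbD d hd] at h1
    rw [commutatorElement_def, commutatorElement_def] at h1
    have h2 : b x * d⁻¹ * (b x)⁻¹ = x * d⁻¹ * x⁻¹ := by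
      have := congrArg (fun y => d⁻¹ * y) h1
      simpa [mul_assoc] using this
    have h3 : b x * d * (b x)⁻¹ = x * d * x⁻¹ := by
      have := congrArg (fun y => y⁻¹) h2
      simpa [mul_assoc] using this
    calc x⁻¹ * b x * d = x⁻¹ * (b x * d * (b x)⁻¹) * b x := by group
      _ = x⁻¹ * (x * d * x⁻¹) * b x := by rw [h3]
      _ = d * (x⁻¹ * b x) := by group

/-- The same with a maximal abelian subgroup `A` of `D`: `A` is normal in `Q` together with all its images under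
`G`. -/
theorem exists_relCritAbelian {Q : Type*} [Group Q] [Finite Q] {p : ℕ} [hp : Fact p.Prime]
    (hQ : IsPGroup p Q) (G : Subgroup (MulAut Q)) (hG : ∀ q : Q, MulAut.conj q ∈ G)
    (T : Subgroup Q) (hT : ∀ g ∈ G, ∀ x ∈ T, g x ∈ T) :
    ∃ A : Subgroup Q, A ≤ T ∧ (∀ x ∈ A, ∀ y ∈ A, x * y = y * x) ∧ (∀ x ∈ A, x ^ sexp p = 1) ∧
      (∀ q : Q, ∀ x ∈ A, q * x * q⁻¹ ∈ A) ∧
      (∀ b ∈ G, (orderOf b).Coprime p → (∀ x, x⁻¹ * b x ∈ T) → (∀ x ∈ A, b x = x) →
        b = 1) := by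
  obtain ⟨D, hDT, hDG, hDe, hDq, hDb⟩ := exists_relCrit hQ G hG T hT
  let P : Subgroup Q → Prop := fun A => A ≤ D ∧ ∀ x ∈ A, ∀ y ∈ A, x * y = y * x
  have hPbot : P ⊥ := by
    refine ⟨bot_le, ?_⟩
    intro x hx y hy
    rw [Subgroup.mem_bot] at hx hy
    rw [hx, hy]
  obtain ⟨A, -, hAmax⟩ := (Set.toFinite {A : Subgroup Q | P A}).exists_le_maximal hPbot
  obtain ⟨hAD, hAab⟩ : P A := hAmax.1
  -- `C_D(A) = A`
  have hself : ∀ x ∈ D, (∀ a ∈ A, x * a = a * x) → x ∈ A := by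
    intro x hx hxa
    let C : Subgroup Q := Subgroup.closure ((A : Set Q) ∪ {x})
    have hC : P C := by
      refine ⟨(Subgroup.closure_le D).2 ?_, ?_⟩
      · rintro y (hy | hy)
        · exact hAD hy
        · rw [Set.mem_singleton_iff.1 hy]; exact hx
      · have hcc : ∀ y ∈ (A : Set Q) ∪ {x}, ∀ z ∈ (A : Set Q) ∪ {x}, y * z = z * y := by
          rintro y (hy | hy) z (hz | hz)
          · exact hAab y hy z hz
          · rw [Set.mem_singleton_iff.1 hz]; exact (hxa y hy).symm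
          · rw [Set.mem_singleton_iff.1 hy]; exact hxa z hz
          · rw [Set.mem_singleton_iff.1 hy, Set.mem_singleton_iff.1 hz]
        have h1 : C ≤ Subgroup.centralizer ((A : Set Q) ∪ {x}) :=
          (Subgroup.closure_le _).2 fun z hz => Subgroup.mem_centralizer_iff.2 fun y hy =>
            hcc y hy z hz
        have h2 : C ≤ Subgroup.centralizer (C : Set Q) := by
          refine (Subgroup.closure_le _).2 fun z hz => Subgroup.mem_centralizer_iff.2 fun y hy => ?_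
          exact (Subgroup.mem_centralizer_iff.1 (h1 hy) z hz).symm
        intro y hy z hz
        exact Subgroup.mem_centralizer_iff.1 (h2 hz) y hy
    have hAC : A ≤ C := fun a ha => Subgroup.subset_closure (Or.inl ha)
    exact hAmax.2 hC hAC (Subgroup.subset_closure (Or.inr rfl))
  have hcommA : ∀ x ∈ D, ∀ q : Q, ⁅x, q⁆ ∈ A := fun x hx q =>
    hself _ (hDq x hx q).1 fun a ha => (hDq x hx q).2 a (hAD ha)
  refine ⟨A, hAD.trans hDT, hAab, fun x hx => hDe x (hAD hx), fun q x hx => ?_, ?_⟩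
  · have h1 : q * x * q⁻¹ = (⁅x, q⁆)⁻¹ * x := by rw [commutatorElement_def]; group
    rw [h1]
    exact A.mul_mem (A.inv_mem (hcommA x (hAD hx) q)) hx
  · intro b hbG hb hbT hbA
    refine hDb b hbG hb hbT fun x hx => ?_
    refine fix_of_fix_div hQ b hb x (hbA _ (hself _ ?_ fun a ha => ?_))
    · exact D.mul_mem (D.inv_mem hx) (hDG b hbG x hx)
    · -- `x⁻¹ b x` centralizes `A`
      have h1 : b ⁅x, a⁆ = ⁅x, a⁆ := hbA _ (hcommA x hx a)
      rw [map_commutatorElement, hbA a ha] at h1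
      rw [commutatorElement_def, commutatorElement_def] at h1
      have h2 : b x * a * (b x)⁻¹ = x * a * x⁻¹ := mul_right_cancel h1
      calc x⁻¹ * b x * a = x⁻¹ * (b x * a * (b x)⁻¹) * b x := by group
        _ = x⁻¹ * (x * a * x⁻¹) * b x := by rw [h2]
        _ = a * (x⁻¹ * b x) := by group

end Cfsg.Agent.H793
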